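import Cfsg.Agent.H349.K6.RowsW

/-!
# S4876 (`k(B₀) = 6`): the rows `E₆(q)`, `E₇(q)`, `E₈(q)`, `²E₆(q)`, `p = 3` in cross characteristic (helper349)
-/

set_option autoImplicit false

namespace Cfsg.Agent.H349.K6

open Cfsg Cfsg.Lie Cfsg.Lie.ChevalleyDatum
open Cfsg.Agent.ChevalleyStructure Cfsg.Agent.ChevalleyStructure.Elts Cfsg.Agent.ChevalleyStructure.CoxeterGeomTypes
open Cfsg.Agent.Nodes Cfsg.Agent.Nodes.RGDChev
open Cfsg.Agent.H316.U6

universe u v w

variable {l : ℕ} {M : CoxeterMatrix (Fin l)} {r q : ℕ} [hr : Fact r.Prime] {K₀ : Type v} [Group K₀] [Finite K₀]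

theorem three_dvd {l : ℕ} {M : CoxeterMatrix (Fin l)} {D : ChevalleyDatum} {hp : IsType D l M} (m : MData hp r q K₀)
    (h3 : 3 ≠ r) : 3 ∣ q ^ 2 - 1 := by
  have h1 : ¬ 3 ∣ q := by
    rw [← m.hq]
    intro h
    exact h3 ((Nat.prime_dvd_prime_iff_eq Nat.prime_three hr.out).1 (Nat.prime_three.dvd_of_dvd_pow h))
  have h2 : q ^ 2 % 3 = 1 := by
    rw [Nat.pow_mod]
    have h4 : q % 3 = 1 ∨ q % 3 = 2 := by omega
    rcases h4 with h | h <;> rw [h]
  omega

theorem krow_e6_three {hp : IsType chevE6 l M} (m : MData hp r q K₀)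
    (hg : m.g (vec chevE6 l 71) = vec chevE6 l 71 ∧ m.g (vec chevE6 l 11) = vec chevE6 l 11 ∧
      m.g (vec chevE6 l 27) = vec chevE6 l 27 ∧ m.g (vec chevE6 l 32) = vec chevE6 l 32)
    (h3 : 3 ≠ r) : H61.K6.KRow.{w, v} 3 K₀ := by
  obtain ⟨g1, g2, g3, g4⟩ := hg
  exact krow_of_cnt m (by norm_num) h3 (three_dvd m h3) (s₁ := 71) (s₂ := 11) (s₃ := 27) (s₄ := 32) (by decide)
    (by decide) (by decide) (by decide) g1 g2 g3 g4 (by decide +kernel) (by decide +kernel) (by decide +kernel)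
    (by decide +kernel) (by decide +kernel) (by decide +kernel)
    (0, 0, 1) (0, 1, 1) (1, 1, 1) (n₁ := 30) (n₂ := 24) (n₃ := 18) (by decide +kernel) (by decide +kernel)
    (by decide +kernel) (by decide) (by decide)

theorem krow_e7_three {hp : IsType chevE7 l M} (m : MData hp r q K₀) (hg : m.g = AddEquiv.refl _)
    (h3 : 3 ≠ r) : H61.K6.KRow.{w, v} 3 K₀ :=
  krow_of_cnt m (by norm_num) h3 (three_dvd m h3) (s₁ := 33) (s₂ := 125) (s₃ := 38) (s₄ := 47) (by decide) (by decide)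
    (by decide) (by decide) (by rw [hg]; rfl) (by rw [hg]; rfl) (by rw [hg]; rfl) (by rw [hg]; rfl)
    (by decide +kernel) (by decide +kernel) (by decide +kernel) (by decide +kernel) (by decide +kernel) (by decide +kernel)
    (0, 0, 1) (0, 1, 1) (1, 1, 1) (n₁ := 60) (n₂ := 42) (n₃ := 36) (by decide +kernel) (by decide +kernel)
    (by decide +kernel) (by decide) (by decide)

theorem krow_e8_three {hp : IsType chevE8 l M} (m : MData hp r q K₀) (hg : m.g = AddEquiv.refl _)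
    (h3 : 3 ≠ r) : H61.K6.KRow.{w, v} 3 K₀ :=
  krow_of_cnt m (by norm_num) h3 (three_dvd m h3) (s₁ := 13) (s₂ := 239) (s₃ := 80) (s₄ := 87) (by decide) (by decide)
    (by decide) (by decide) (by rw [hg]; rfl) (by rw [hg]; rfl) (by rw [hg]; rfl) (by rw [hg]; rfl)
    (by decide +kernel) (by decide +kernel) (by decide +kernel) (by decide +kernel) (by decide +kernel) (by decide +kernel)
    (0, 0, 1) (0, 1, 1) (1, 1, 1) (n₁ := 126) (n₂ := 84) (n₃ := 78) (by decide +kernel) (by decide +kernel)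
    (by decide +kernel) (by decide) (by decide)

section Groups

variable {F : Type} [Field F] [Fintype F] [CharP F r]

/-- `E₆(q)`, `p = 3` -/
theorem krow_E6_three (h3 : 3 ≠ r) : H61.K6.KRow.{w, 0} 3 ↥(chevE6.group F) := by
  obtain ⟨m, hg, -⟩ := mdata_untw (r := r) (H129.CycT.typeE6) (fun h => absurd (congrArg ChevalleyDatum.nroots h) (by decide))
    (fun h => absurd (congrArg ChevalleyDatum.nroots h) (by decide)) F
  exact krow_e6_three m ⟨by rw [hg]; rfl, by rw [hg]; rfl, by rw [hg]; rfl, by rw [hg]; rfl⟩ h3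

/-- `E₇(q)`, `p = 3` -/
theorem krow_E7_three (h3 : 3 ≠ r) : H61.K6.KRow.{w, 0} 3 ↥(chevE7.group F) := by
  obtain ⟨m, hg, -⟩ := mdata_untw (r := r) (H129.CycT.typeE7) (fun h => absurd (congrArg ChevalleyDatum.nroots h) (by decide))
    (fun h => absurd (congrArg ChevalleyDatum.nroots h) (by decide)) F
  exact krow_e7_three m hg h3

/-- `E₈(q)`, `p = 3` -/
theorem krow_E8_three (h3 : 3 ≠ r) : H61.K6.KRow.{w, 0} 3 ↥(chevE8.group F) := by
  obtain ⟨m, hg, -⟩ := mdata_untw (r := r) (H129.CycT.typeE8) (fun h => absurd (congrArg ChevalleyDatum.nroots h) (by decide))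
    (fun h => absurd (congrArg ChevalleyDatum.nroots h) (by decide)) F
  exact krow_e8_three m hg h3

/-- `²E₆(q)`, `p = 3` -/
theorem krow_twE6_three (hq : IsPrimePow q) (hF : Fintype.card F = q ^ 2) (h3 : 3 ≠ r) :
    H61.K6.KRow.{w, 0} 3 ↥(twistedE6 F q) := by
  obtain ⟨m, -, hg⟩ := mdata_twE6' (r := r) (K := F) hq hF
  exact krow_e6_three m ⟨by rw [hg]; decide +kernel, by rw [hg]; decide +kernel, by rw [hg]; decide +kernel,
    by rw [hg]; decide +kernel⟩ h3

end Groups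

end Cfsg.Agent.H349.K6
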